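import Cfsg.Agent.Eq.Def_Characters
import Cfsg.Agent.Eq.Def_Transfer
import Cfsg.Prelude.Def_Transfer
import Cfsg.Agent.Chars.Basic
import Cfsg.Agent.Chars.Induced.Clifford
import Mathlib.GroupTheory.PGroup

/-!
# Characters that are nonzero on exactly two classes (Gagola)

The support of such a character is an elementary abelian normal subgroup contained in every
nontrivial normal subgroup, permuted transitively, and every element outside it is conjugate to
its whole coset.
-/

noncomputable section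

open scoped ComplexConjugate

namespace CfsgLib.GagolaChar

open Cfsg CfsgLib.Chars

universe u

variable {G : Type u} [Group G]

/-- `χ` is nonzero exactly at the identity and on the class of `x`, and `x ≠ 1`. -/
def IsTwoSupport (χ : IrrCharacter G) (x : G) : Prop :=
  x ≠ 1 ∧ ∀ g : G, (χ : G → ℂ) g ≠ 0 ↔ g = 1 ∨ IsConj x g

theorem exists_isTwoSupport (χ : IrrCharacter G)
    (h : Nat.card {C : ConjClasses G // ∃ g ∈ C.carrier, (χ : G → ℂ) g ≠ 0} = 2) :
    ∃ x, IsTwoSupport χ x := by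
  have h1 : (1 : G) ∈ (ConjClasses.mk (1 : G)).carrier := ConjClasses.mem_carrier_mk
  obtain ⟨⟨C, g, hgC, hg⟩, hne, huniq⟩ := (Nat.card_eq_two_iff'
    (⟨ConjClasses.mk 1, 1, h1, map_one_ne_zero χ⟩ :
      {C : ConjClasses G // ∃ g ∈ C.carrier, (χ : G → ℂ) g ≠ 0})).1 h
  have hgC' : ConjClasses.mk g = C := ConjClasses.mem_carrier_iff_mk_eq.1 hgC
  refine ⟨g, fun h0 => hne (Subtype.ext (hgC'.symm.trans (congrArg ConjClasses.mk h0))), fun y => ⟨fun hy => ?_, ?_⟩⟩
  · by_cases hy1 : ConjClasses.mk y = ConjClasses.mk 1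
    · exact Or.inl (isConj_one_left.1 (ConjClasses.mk_eq_mk_iff_isConj.1 hy1))
    · have h2 := huniq ⟨ConjClasses.mk y, y, ConjClasses.mem_carrier_mk, hy⟩
        fun h' => hy1 (congrArg Subtype.val h')
      have h3 : ConjClasses.mk y = C := congrArg Subtype.val h2
      exact Or.inr (ConjClasses.mk_eq_mk_iff_isConj.1 (hgC'.trans h3.symm))
  · rintro (rfl | hc)
    · exact map_one_ne_zero χ
    · rwa [← eq_of_isConj (isClassFunction_coe χ) hc]

variable [Finite G] {χ : IrrCharacter G} {x : G}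

/-- The inner product of any function with `χ` only sees the two classes. -/
theorem sum_mul_conj [Fintype G] (hx : IsTwoSupport χ x) {f : G → ℂ} (hf : IsClassFunction G f) :
    ∑ g : G, f g * conj ((χ : G → ℂ) g) = f 1 * conj ((χ : G → ℂ) 1) +
      ((Subgroup.centralizer ({x} : Set G)).index : ℂ) * (f x * conj ((χ : G → ℂ) x)) := by
  classical
  rw [← Finset.add_sum_erase _ _ (Finset.mem_univ (1 : G))]
  congr 1
  have h1 : ∀ g ∈ Finset.univ.erase (1 : G), f g * conj ((χ : G → ℂ) g) =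
      if IsConj x g then f x * conj ((χ : G → ℂ) x) else 0 := by
    intro g hg
    split_ifs with hc
    · rw [eq_of_isConj hf hc, eq_of_isConj (isClassFunction_coe χ) hc]
    · rw [show (χ : G → ℂ) g = 0 by
        by_contra h0
        exact ((hx.2 g).1 h0).elim (Finset.ne_of_mem_erase hg) hc, map_zero, mul_zero]
  rw [Finset.sum_congr rfl h1, Finset.sum_ite, Finset.sum_const_zero, add_zero, Finset.sum_const,
    nsmul_eq_mul]
  congr 2
  rw [← card_carrier_eq_index, ← Fintype.card_coe, ← Nat.card_eq_fintype_card]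
  norm_cast
  refine Nat.card_congr (Equiv.subtypeEquivRight fun g => ?_)
  rw [ConjClasses.mem_carrier_iff_mk_eq, ConjClasses.mk_eq_mk_iff_isConj]
  rw [Finset.mem_filter]
  refine ⟨fun h => h.2.symm, fun h => ⟨Finset.mem_erase.2 ⟨?_, Finset.mem_univ _⟩, h.symm⟩⟩
  rintro rfl
  exact hx.1 (isConj_one_right.1 h)

theorem ne_oneChar (hG : 2 < Nat.card G) (hx : IsTwoSupport χ x) : χ ≠ oneChar G := by
  classical
  have := Fintype.ofFinite G
  intro h
  have hall : ∀ g : G, g = 1 ∨ IsConj x g := fun g => (hx.2 g).1 (by rw [h, oneChar_apply]; exact one_ne_zero)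
  have hc := card_carrier_mul_card_centralizer x
  have hG' : Nat.card G = Nat.card (ConjClasses.mk x).carrier + 1 := by
    have e : Nat.card (ConjClasses.mk x).carrier = Nat.card {g : G // g ≠ 1} := by
      refine Nat.card_congr (Equiv.subtypeEquivRight fun g => ?_)
      rw [ConjClasses.mem_carrier_iff_mk_eq, ConjClasses.mk_eq_mk_iff_isConj]
      refine ⟨fun hg h1 => hx.1 ?_, fun h1 => ((hall g).resolve_left h1).symm⟩
      subst h1
      exact isConj_one_right.1 hg
    rw [e, Nat.card_eq_fintype_card, Nat.card_eq_fintype_card, Fintype.card_subtype_compl,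
      Fintype.card_subtype_eq]
    have := Fintype.card_pos (α := G)
    omega
  have hdvd : Nat.card (ConjClasses.mk x).carrier ∣ Nat.card G := ⟨_, hc.symm⟩
  rw [hG', Nat.dvd_add_right dvd_rfl, Nat.dvd_one] at hdvd
  omega

theorem index_mul_map (hG : 2 < Nat.card G) (hx : IsTwoSupport χ x) :
    ((Subgroup.centralizer ({x} : Set G)).index : ℂ) * conj ((χ : G → ℂ) x) =
      -(χ : G → ℂ) 1 := by
  classical
  have := Fintype.ofFinite G
  have h := classInner_of_ne (fun h => ne_oneChar hG hx h.symm : oneChar G ≠ χ)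
  rw [Cfsg.classInner, mul_eq_zero, or_iff_right (inv_ne_zero natCard_ne_zero),
    sum_mul_conj hx (isClassFunction_coe _), oneChar_apply, oneChar_apply,
    conj_map_one (isCharacter_coe χ), one_mul, one_mul] at h
  linear_combination h

theorem apply_eq_apply_one_of_ne (hG : 2 < Nat.card G) (hx : IsTwoSupport χ x) {ψ : IrrCharacter G}
    (hne : ψ ≠ χ) : (ψ : G → ℂ) x = (ψ : G → ℂ) 1 := by
  classical
  have := Fintype.ofFinite G
  have h := classInner_of_ne hne
  rw [Cfsg.classInner, mul_eq_zero, or_iff_right (inv_ne_zero natCard_ne_zero),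
    sum_mul_conj hx (isClassFunction_coe _), conj_map_one (isCharacter_coe χ),
    mul_left_comm, index_mul_map hG hx] at h
  have h1 : ((ψ : G → ℂ) 1 - (ψ : G → ℂ) x) * (χ : G → ℂ) 1 = 0 := by linear_combination h
  exact (sub_eq_zero.1 ((mul_eq_zero.1 h1).resolve_right (map_one_ne_zero χ))).symm

theorem map_x_ne_map_one (hG : 2 < Nat.card G) (hx : IsTwoSupport χ x) :
    (χ : G → ℂ) x ≠ (χ : G → ℂ) 1 := by
  intro h
  have h1 := index_mul_map hG hx
  rw [h, conj_map_one (isCharacter_coe χ)] at h1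
  have h2 : (((Subgroup.centralizer ({x} : Set G)).index : ℂ) + 1) * (χ : G → ℂ) 1 = 0 := by
    linear_combination h1
  exact (mul_ne_zero (Nat.cast_add_one_ne_zero _) (map_one_ne_zero χ)) h2

/-- The support, as the intersection of the kernels of the other irreducible characters. -/
def supp (χ : IrrCharacter G) : Subgroup G :=
  ⨅ (ψ : IrrCharacter G) (_ : ψ ≠ χ), charKer (ψ : G → ℂ)

theorem mem_supp {g : G} :
    g ∈ supp χ ↔ ∀ ψ : IrrCharacter G, ψ ≠ χ → (ψ : G → ℂ) g = (ψ : G → ℂ) 1 := by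
  simp [supp, Subgroup.mem_iInf, mem_charKer_iff (isCharacter_coe _)]

theorem self_mem_supp (hG : 2 < Nat.card G) (hx : IsTwoSupport χ x) : x ∈ supp χ :=
  mem_supp.2 fun _ hψ => apply_eq_apply_one_of_ne hG hx hψ

theorem supp_normal (χ : IrrCharacter G) : (supp χ).Normal :=
  ⟨fun n hn g => mem_supp.2 fun ψ hψ => by
    rw [isClassFunction_coe ψ n g]
    exact mem_supp.1 hn ψ hψ⟩

theorem map_ne_zero_iff (hG : 2 < Nat.card G) (hx : IsTwoSupport χ x) (g : G) :
    (χ : G → ℂ) g ≠ 0 ↔ g ∈ supp χ := by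
  classical
  constructor
  · intro h
    rcases (hx.2 g).1 h with rfl | hc
    · exact one_mem _
    · obtain ⟨c, rfl⟩ := isConj_iff.1 hc
      exact (supp_normal χ).conj_mem _ (self_mem_supp hG hx) c
  · intro hg h0
    have hg1 : g ≠ 1 := fun h => map_one_ne_zero χ (h ▸ h0)
    have := Fintype.ofFinite G
    have h := sum_irr_map_one_mul g
    rw [if_neg hg1, ← Finset.add_sum_erase _ _ (Finset.mem_univ χ), h0, mul_zero, zero_add] at h
    have h1 : ∑ ψ ∈ Finset.univ.erase χ, ((charDegree (ψ : G → ℂ) ^ 2 : ℕ) : ℂ) = 0 := by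
      rw [← h]
      refine Finset.sum_congr rfl fun ψ hψ => ?_
      rw [mem_supp.1 hg ψ (Finset.ne_of_mem_erase hψ), Nat.cast_pow, coe_charDegree, pow_two]
    rw [← Nat.cast_sum, Nat.cast_eq_zero, Finset.sum_eq_zero_iff] at h1
    have h2 := h1 (oneChar G) (Finset.mem_erase.2 ⟨(ne_oneChar hG hx).symm, Finset.mem_univ _⟩)
    exact absurd h2 (pow_ne_zero 2 (charDegree_pos _).ne')

theorem isConj_of_mem_supp (hG : 2 < Nat.card G) (hx : IsTwoSupport χ x) {g : G} (hg : g ∈ supp χ)
    (hg1 : g ≠ 1) : IsConj x g :=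
  ((hx.2 g).1 ((map_ne_zero_iff hG hx g).2 hg)).resolve_left hg1

theorem eq_supp_of_forall (hG : 2 < Nat.card G) (hx : IsTwoSupport χ x) {N : Subgroup G}
    (hN : ∀ g : G, g ∈ N ↔ (χ : G → ℂ) g ≠ 0) : N = supp χ := by
  ext g
  rw [hN, map_ne_zero_iff hG hx]

/-- Every nontrivial normal subgroup contains the support. -/
theorem supp_le_of_normal (hG : 2 < Nat.card G) (hx : IsTwoSupport χ x) (K : Subgroup G) [K.Normal]
    (hK : K ≠ ⊥) : supp χ ≤ K := by
  classical
  have hne : ∀ β : IrrCharacter (G ⧸ K), inflate K β ≠ χ := by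
    intro β hβ
    obtain ⟨k, hk, hk1⟩ := (Subgroup.bot_or_exists_ne_one K).resolve_left hK
    have h0 : (χ : G → ℂ) k = (χ : G → ℂ) 1 := by
      rw [← hβ, inflate_apply, inflate_apply, (QuotientGroup.eq_one_iff k).2 hk, QuotientGroup.mk_one]
    have hc := ((hx.2 k).1 (by rw [h0]; exact map_one_ne_zero χ)).resolve_left hk1
    rw [← eq_of_isConj (isClassFunction_coe χ) hc] at h0
    exact map_x_ne_map_one hG hx h0
  intro g hg
  rw [← QuotientGroup.eq_one_iff]
  refine eq_one_of_forall_eq fun β => ?_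
  have h := mem_supp.1 hg (inflate K β) (hne β)
  rwa [inflate_apply, inflate_apply, QuotientGroup.mk_one] at h

theorem supp_ne_bot (hG : 2 < Nat.card G) (hx : IsTwoSupport χ x) : supp χ ≠ ⊥ :=
  fun h => hx.1 (by simpa [h, Subgroup.mem_bot] using self_mem_supp hG hx)

/-- The support is elementary abelian. -/
theorem exists_isElementaryAbelian (hG : 2 < Nat.card G) (hx : IsTwoSupport χ x) :
    ∃ p : ℕ, p.Prime ∧ IsElementaryAbelian p (supp χ) := by
  classical
  set N := supp χ
  have hn := supp_normal χ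
  have hcard : Nat.card N ≠ 1 := fun h => supp_ne_bot hG hx (Subgroup.eq_bot_of_card_eq _ h)
  obtain ⟨p, hp, hpd⟩ := Nat.exists_prime_and_dvd hcard
  have : Fact p.Prime := ⟨hp⟩
  obtain ⟨z, hz⟩ := exists_prime_orderOf_dvd_card' p hpd
  have hz1 : (z : G) ≠ 1 := by
    intro h
    rw [← Subgroup.orderOf_coe, h, orderOf_one] at hz
    exact hp.ne_one hz.symm
  have hconj : ∀ a : N, (a : G) ≠ 1 → ∃ g : G, g * (z : G) * g⁻¹ = a := fun a ha =>
    isConj_iff.1 ((isConj_of_mem_supp hG hx z.2 hz1).symm.trans (isConj_of_mem_supp hG hx a.2 ha))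
  have hexp : ∀ a ∈ N, a ^ p = 1 := by
    intro a ha
    by_cases ha1 : a = 1
    · rw [ha1, one_pow]
    · obtain ⟨g, hg⟩ := hconj ⟨a, ha⟩ ha1
      have hzp : (z : G) ^ p = 1 := by
        rw [← hz, ← Subgroup.coe_pow, pow_orderOf_eq_one, OneMemClass.coe_one]
      show a ^ p = 1
      rw [← show g * (z : G) * g⁻¹ = a from hg, conj_pow, hzp, mul_one, mul_inv_cancel]
  have hpG : IsPGroup p N := fun a => ⟨1, Subtype.ext (by simpa using hexp a a.2)⟩
  have : Nontrivial N := (Subgroup.nontrivial_iff_ne_bot N).2 (supp_ne_bot hG hx)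
  obtain ⟨w, hw⟩ := (Subgroup.nontrivial_iff_exists_ne_one _).1 hpG.center_nontrivial
  have hw1 : (w : G) ≠ 1 := fun h => hw.2 (Subtype.ext h)
  have hcomm : ∀ a b : N, a * b = b * a := by
    intro a b
    by_cases ha : (a : G) = 1
    · rw [show a = 1 from Subtype.ext ha, one_mul, mul_one]
    · obtain ⟨g, hg⟩ := isConj_iff.1
        ((isConj_of_mem_supp hG hx w.2 hw1).symm.trans (isConj_of_mem_supp hG hx a.2 ha))
      have hb : g⁻¹ * (b : G) * g ∈ N := by simpa using hn.conj_mem _ b.2 g⁻¹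
      have h1 := congrArg Subtype.val (Subgroup.mem_center_iff.1 hw.1 ⟨_, hb⟩)
      simp only [Subgroup.coe_mul] at h1
      apply Subtype.ext
      simp only [Subgroup.coe_mul, ← hg]
      calc g * (w : G) * g⁻¹ * b = g * ((w : G) * (g⁻¹ * b * g)) * g⁻¹ := by group
        _ = g * (g⁻¹ * b * g * (w : G)) * g⁻¹ := by rw [h1]
        _ = b * (g * w * g⁻¹) := by group
  exact ⟨p, hp, ⟨⟨fun a b => hcomm a b⟩⟩, hexp⟩

theorem faithful (hG : 2 < Nat.card G) (hx : IsTwoSupport χ x) {g : G}
    (hg : (χ : G → ℂ) g = (χ : G → ℂ) 1) : g = 1 := by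
  by_contra hg1
  have hc := ((hx.2 g).1 (by rw [hg]; exact map_one_ne_zero χ)).resolve_left hg1
  rw [← eq_of_isConj (isClassFunction_coe χ) hc] at hg
  exact map_x_ne_map_one hG hx hg

theorem eq_of_faithful (hG : 2 < Nat.card G) (hx : IsTwoSupport χ x) {ψ : IrrCharacter G}
    (hψ : ∀ g : G, (ψ : G → ℂ) g = (ψ : G → ℂ) 1 → g = 1) : ψ = χ := by
  by_contra hne
  exact hx.1 (hψ x (apply_eq_apply_one_of_ne hG hx hne))

/-- Outside the support every element is conjugate to its whole coset. -/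
theorem isConj_mul_of_notMem (hG : 2 < Nat.card G) (hx : IsTwoSupport χ x) {n y : G}
    (hn : n ∈ supp χ) (hy : y ∉ supp χ) : IsConj y (n * y) := by
  refine isConj_of_forall_eq fun ψ => ?_
  by_cases hψ : ψ = χ
  · subst hψ
    have h1 : (ψ : G → ℂ) y = 0 := by
      by_contra h
      exact hy ((map_ne_zero_iff hG hx y).1 h)
    have h2 : (ψ : G → ℂ) (n * y) = 0 := by
      by_contra h
      exact hy (by simpa using (supp ψ).mul_mem (inv_mem hn) ((map_ne_zero_iff hG hx _).1 h))
    rw [h1, h2]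
  · exact ((mem_charKer_iff (isCharacter_coe ψ)).2 (mem_supp.1 hn ψ hψ) y).symm

/-- Centraliser orders outside the support are those in the quotient. -/
theorem card_centralizer_eq (hG : 2 < Nat.card G) (hx : IsTwoSupport χ x) (N : Subgroup G)
    [N.Normal] (hN : N = supp χ) {y : G} (hy : y ∉ N) :
    Nat.card (Subgroup.centralizer ({y} : Set G)) =
      Nat.card (Subgroup.centralizer ({(y : G ⧸ N)} : Set (G ⧸ N))) := by
  classical
  have h1 := sum_irr_norm_sq y
  have h2 := sum_irr_norm_sq (y : G ⧸ N)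
  have h3 := sum_inflate N (fun ψ : IrrCharacter G => ‖(ψ : G → ℂ) y‖ ^ 2)
  simp only [inflate_apply] at h3
  have hχy : (χ : G → ℂ) y = 0 := by
    by_contra h
    exact hy (hN ▸ (map_ne_zero_iff hG hx y).1 h)
  rw [h2, Finset.sum_filter] at h3
  have h4 : ∑ ψ : IrrCharacter G,
      (if N ≤ charKer (ψ : G → ℂ) then ‖(ψ : G → ℂ) y‖ ^ 2 else 0) =
        ∑ ψ : IrrCharacter G, ‖(ψ : G → ℂ) y‖ ^ 2 := by
    refine Finset.sum_congr rfl fun ψ _ => ?_
    split_ifs with h
    · rfl
    · by_cases hψ : ψ = χ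
      · simp [hψ, hχy]
      · exact absurd (fun n hn => (mem_charKer_iff (isCharacter_coe ψ)).2
          (mem_supp.1 (hN ▸ hn) ψ hψ)) h
  rw [h4, h1] at h3
  exact_mod_cast h3.symm

end CfsgLib.GagolaChar
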