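import Cfsg.Agent.GagolaChar.Sylow
import Cfsg.Agent.BaerSuzuki.Basic
import Cfsg.Agent.Frobenius.Basic
import Mathlib.GroupTheory.SchurZassenhaus

/-!
# When the support of a character nonzero on two classes is the whole `p`-core
-/

noncomputable section

namespace CfsgLib.GagolaChar

open Cfsg CfsgLib.Chars

universe u

variable {G : Type u} [Group G] [Finite G] {χ : IrrCharacter G} {x : G} {p : ℕ}
  [Fact p.Prime] {N : Subgroup G} [N.Normal]

theorem eq_of_centralizer_isPGroup (hG : 2 < Nat.card G) (hx : IsTwoSupport χ x) (hN : N = supp χ)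
    (hNp : IsPGroup p N) {n t : G} (hn : n ∈ N) (hn1 : n ≠ 1) (hc : t * n = n * t)
    {r : ℕ} (hr : r.Prime) (ht : orderOf t = r) : r = p := by
  obtain ⟨P, hP⟩ := exists_sylow_centralizer hG hx p N hN hNp hn hn1
  have hmem : t ∈ (P : Subgroup G) := hP ▸ Subgroup.mem_centralizer_singleton_iff.2 hc
  obtain ⟨j, hj⟩ := IsPGroup.iff_orderOf.1 P.2 ⟨t, hmem⟩
  rw [Subgroup.orderOf_mk] at hj
  rw [ht] at hj
  exact (Nat.prime_dvd_prime_iff_eq hr Fact.out).1 (hr.dvd_of_dvd_pow (dvd_of_eq hj))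

theorem orderOf_mul_eq (hG : 2 < Nat.card G) (hx : IsTwoSupport χ x) (hN : N = supp χ) {n y : G}
    (hn : n ∈ N) (hy : y ∉ N) : orderOf (n * y) = orderOf y := by
  obtain ⟨e, he⟩ := isConj_iff.1 (isConj_mul_of_notMem hG hx (hN ▸ hn) (hN ▸ hy))
  rw [← he]
  exact (MulEquiv.orderOf_eq (MulAut.conj e) _)

/-- The support is a Sylow subgroup as soon as it is the `p`-core. -/
theorem not_dvd_index_of_eq_pCore (hG : 2 < Nat.card G) (hx : IsTwoSupport χ x) (hN : N = supp χ)
    (hNp : IsPGroup p N) (hN1 : N ≠ ⊥) (hcore : N = Cfsg.pCore p G) : ¬ p ∣ N.index := by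
  intro hdvd
  have hp : p.Prime := Fact.out
  obtain ⟨p', hp', hel⟩ := exists_isElementaryAbelian hG hx
  have hcomm : ∀ a b : G, a ∈ N → b ∈ N → a * b = b * a := fun a b ha hb =>
    congrArg Subtype.val (hel.1.is_comm.comm (⟨a, hN ▸ ha⟩ : supp χ) ⟨b, hN ▸ hb⟩)
  obtain ⟨n₀, hn₀, hn₀1⟩ := (Subgroup.bot_or_exists_ne_one N).resolve_left hN1
  have hexp : ∀ a ∈ N, a ^ p = 1 := by
    have hpp : p' = p := by
      obtain ⟨k, hk⟩ := IsPGroup.iff_orderOf.1 hNp ⟨n₀, hn₀⟩
      rw [Subgroup.orderOf_mk] at hk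
      have h1 : orderOf n₀ ∣ p' := orderOf_dvd_of_pow_eq_one (hel.2 n₀ (hN ▸ hn₀))
      have hk0 : k ≠ 0 := by
        rintro rfl
        rw [pow_zero, orderOf_eq_one_iff] at hk
        exact hn₀1 hk
      exact ((Nat.prime_dvd_prime_iff_eq hp hp').1
        ((dvd_pow_self p hk0).trans (hk ▸ h1))).symm
    exact fun a ha => hpp ▸ hel.2 a (hN ▸ ha)
  -- the support contains its centraliser
  have hcent : ∀ y : G, (∀ n ∈ N, y * n = n * y) → y ∈ N := by
    intro y hy
    obtain ⟨P, hP⟩ := exists_sylow_centralizer hG hx p N hN hNp hn₀ hn₀1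
    have hle : Subgroup.centralizer (N : Set G) ≤ (P : Subgroup G) := fun c hc =>
      hP ▸ Subgroup.mem_centralizer_singleton_iff.2 (Subgroup.mem_centralizer_iff.1 hc n₀ hn₀).symm
    rw [hcore]
    exact CfsgLib.BaerSuzuki.normal_pgroup_le_pCore inferInstance (P.2.to_le hle)
      (Subgroup.mem_centralizer_iff.2 fun m hm => (hy m hm).symm)
  by_cases hp2 : p = 2
  · subst hp2
    -- an involution of the quotient inverts an element of odd prime order
    obtain ⟨u, hu⟩ := exists_prime_orderOf_dvd_card' (G := G ⧸ N) 2 (N.index_eq_card ▸ hdvd)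
    have hO : u ∉ Cfsg.pCore 2 (G ⧸ N) := by
      intro h
      have hbot : Cfsg.pCore 2 (G ⧸ N) = ⊥ := by
        refine sSup_eq_bot.2 ?_
        rintro M ⟨hM, hMp⟩
        have hpre : IsPGroup 2 ↥(M.comap (QuotientGroup.mk' N)) := by
          refine hMp.comap_of_ker_isPGroup _ ?_
          rw [QuotientGroup.ker_mk']
          exact hNp
        rw [eq_bot_iff]
        intro m hm
        obtain ⟨g, rfl⟩ := QuotientGroup.mk'_surjective N m
        have hg : g ∈ N := hcore ▸ CfsgLib.BaerSuzuki.normal_pgroup_le_pCore (hM.comap _) hpre hm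
        exact Subgroup.mem_bot.2 ((QuotientGroup.eq_one_iff g).2 hg)
      rw [hbot, Subgroup.mem_bot] at h
      rw [h, orderOf_one] at hu
      exact absurd hu (by decide)
    obtain ⟨h, h1, hodd, hinv⟩ := CfsgLib.BaerSuzuki.involution_inverts_odd hu hO
    obtain ⟨r, hr, hrd⟩ := Nat.exists_prime_and_dvd (fun he => h1 (orderOf_eq_one_iff.1 he))
    have hr2 : r ≠ 2 := fun he => (Nat.not_even_iff_odd.2 hodd) (even_iff_two_dvd.2 (he ▸ hrd))
    obtain ⟨g₀, hg₀⟩ := QuotientGroup.mk'_surjective N (h ^ (orderOf h / r))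
    have hh' : orderOf (h ^ (orderOf h / r)) = r := orderOf_pow_orderOf_div (orderOf_pos h).ne' hrd
    -- a lift of order `r`
    obtain ⟨h₁, hh₁, hh₁q⟩ : ∃ h₁ : G, orderOf h₁ = r ∧
        ∃ k : ℕ, (h₁ : G ⧸ N) = (h ^ (orderOf h / r)) ^ k := by
      have hd : r ∣ orderOf g₀ := by
        rw [← hh', ← hg₀]
        exact orderOf_map_dvd _ g₀
      exact ⟨g₀ ^ (orderOf g₀ / r), orderOf_pow_orderOf_div (orderOf_pos g₀).ne' hd,
        orderOf g₀ / r, by rw [QuotientGroup.mk_pow, ← hg₀]; rfl⟩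
    have hfpf : ∀ n ∈ N, h₁ * n = n * h₁ → n = 1 := fun n hn hc => by
      by_contra hn1
      exact hr2 (eq_of_centralizer_isPGroup hG hx hN hNp hn hn1 hc hr hh₁)
    obtain ⟨y₀, hy₀⟩ := QuotientGroup.mk'_surjective N u
    have hyinv : y₀ * h₁ * y₀⁻¹ * h₁ ∈ N := by
      obtain ⟨k, hk⟩ := hh₁q
      rw [← QuotientGroup.eq_one_iff, QuotientGroup.mk_mul, QuotientGroup.mk_mul, QuotientGroup.mk_mul,
        QuotientGroup.mk_inv, show (y₀ : G ⧸ N) = u from hy₀, hk, ← pow_mul, ← conj_pow, hinv, inv_pow,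
        inv_mul_cancel]
    -- make the lift of the involution normalise the lift of order `r`
    let φ : N → N := fun m => ⟨(m : G) * (h₁⁻¹ * (m : G)⁻¹ * h₁),
      N.mul_mem m.2 (by simpa using ‹N.Normal›.conj_mem _ (N.inv_mem m.2) h₁⁻¹)⟩
    have hφ : Function.Injective φ := by
      intro a b hab
      have h := congrArg Subtype.val hab
      simp only [φ] at h
      have hcomm' : h₁ * ((b : G)⁻¹ * a) = ((b : G)⁻¹ * a) * h₁ := by
        calc h₁ * ((b : G)⁻¹ * a) = h₁ * (b : G)⁻¹ * ((a : G) * (h₁⁻¹ * (a : G)⁻¹ * h₁)) *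
            h₁⁻¹ * a * h₁ := by group
          _ = h₁ * (b : G)⁻¹ * ((b : G) * (h₁⁻¹ * (b : G)⁻¹ * h₁)) * h₁⁻¹ * a * h₁ := by rw [h]
          _ = _ := by group
      have := hfpf _ (N.mul_mem (N.inv_mem b.2) a.2) hcomm'
      exact Subtype.ext (inv_mul_eq_one.1 this).symm
    obtain ⟨m, hm⟩ := (Finite.injective_iff_surjective.1 hφ) ⟨_, hyinv⟩
    have hm' : (m : G) * h₁⁻¹ * (m : G)⁻¹ = y₀ * h₁ * y₀⁻¹ := by
      have h := congrArg Subtype.val hm
      simp only [φ] at h
      calc (m : G) * h₁⁻¹ * (m : G)⁻¹ = (m : G) * (h₁⁻¹ * (m : G)⁻¹ * h₁) * h₁⁻¹ := by group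
        _ = y₀ * h₁ * y₀⁻¹ * h₁ * h₁⁻¹ := by rw [h]
        _ = y₀ * h₁ * y₀⁻¹ := by group
    set y := (m : G)⁻¹ * y₀ with hy
    have hyh : y * h₁ * y⁻¹ = h₁⁻¹ := by
      calc y * h₁ * y⁻¹ = (m : G)⁻¹ * (y₀ * h₁ * y₀⁻¹) * m := by rw [hy]; group
        _ = h₁⁻¹ := by rw [← hm']; group
    have hyu : (y : G ⧸ N) = u := by
      rw [hy, QuotientGroup.mk_mul, (QuotientGroup.eq_one_iff _).2 (N.inv_mem m.2), one_mul]
      exact hy₀
    have hyN : y ∉ N := fun hmem => by
      rw [← QuotientGroup.eq_one_iff, hyu] at hmem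
      rw [hmem, orderOf_one] at hu
      exact absurd hu (by decide)
    have hy2 : y * y = 1 := by
      refine hfpf _ ?_ ?_
      · rw [← QuotientGroup.eq_one_iff, QuotientGroup.mk_mul, hyu, ← pow_two, ← hu, pow_orderOf_eq_one]
      · have h3 : y * y * h₁ * (y * y)⁻¹ = h₁ := by
          calc y * y * h₁ * (y * y)⁻¹ = y * (y * h₁ * y⁻¹) * y⁻¹ := by group
            _ = (y * h₁ * y⁻¹)⁻¹ := by rw [hyh]; nth_rw 2 [← hyh]; group
            _ = h₁ := by rw [hyh, inv_inv]
        exact (mul_inv_eq_iff_eq_mul.1 h3).symm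
    refine hyN (hcent y fun n hn => ?_)
    have ho : orderOf (n * y) ∣ 2 := by
      rw [orderOf_mul_eq hG hx hN hn hyN]
      exact orderOf_dvd_of_pow_eq_one (by rw [pow_two, hy2])
    have h4 : (n * y) * (n * y) = 1 := by rw [← pow_two, orderOf_dvd_iff_pow_eq_one.1 ho]
    have hn2 : n * n = 1 := by rw [← pow_two]; exact hexp n hn
    calc y * n = (n⁻¹ * (n * y * (n * y)) * y⁻¹) := by group
      _ = n⁻¹ * y⁻¹ := by rw [h4, mul_one]
      _ = n * y := by rw [inv_eq_of_mul_eq_one_right hn2, inv_eq_of_mul_eq_one_right hy2]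
  · -- an involution inverts the support, so the group splits over it
    obtain ⟨a, ha⟩ := IsPGroup.iff_card.1 hNp
    have heven : 2 ∣ Nat.card G := by
      have h1 := index_centralizer_of_mem hG hx (hN ▸ hn₀) hn₀1
      rw [← hN, ha] at h1
      have h2 : Odd (p ^ a) := (hp.odd_of_ne_two hp2).pow
      have h3 : 2 ∣ (Subgroup.centralizer ({n₀} : Set G)).index := by
        rw [← h1] at h2
        exact even_iff_two_dvd.1 (by simpa [parity_simps] using h2)
      exact h3.trans (Subgroup.index_dvd_card _)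
    obtain ⟨t, ht⟩ := exists_prime_orderOf_dvd_card' 2 heven
    have htt : t * t = 1 := by rw [← pow_two, ← ht, pow_orderOf_eq_one]
    have ht' : t⁻¹ = t := inv_eq_of_mul_eq_one_right htt
    have hfpf : ∀ n ∈ N, t * n = n * t → n = 1 := fun n hn hc => by
      by_contra hn1
      exact hp2 (eq_of_centralizer_isPGroup hG hx hN hNp hn hn1 hc Nat.prime_two ht).symm
    have hinv : ∀ n ∈ N, t * n * t⁻¹ = n⁻¹ := by
      intro n hn
      have hn' := ‹N.Normal›.conj_mem n hn t
      have h1 : n * (t * n * t⁻¹) = 1 := by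
        refine hfpf _ (N.mul_mem hn hn') ?_
        calc t * (n * (t * n * t⁻¹)) = (t * n * t⁻¹) * (t * t * n * (t⁻¹ * t⁻¹)) * t := by group
          _ = (t * n * t⁻¹) * n * t := by rw [htt, ← mul_inv_rev, htt, one_mul, inv_one, mul_one]
          _ = _ := by rw [hcomm _ _ hn' hn]
      exact eq_inv_of_mul_eq_one_right h1
    have hhalf : ∀ n ∈ N, ∃ m ∈ N, m * t * m⁻¹ = n * t := by
      intro n hn
      refine ⟨n ^ ((p + 1) / 2), N.pow_mem hn _, ?_⟩
      have h2 : t * (n ^ ((p + 1) / 2))⁻¹ = n ^ ((p + 1) / 2) * t := by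
        rw [← hinv _ (N.pow_mem hn _)]
        calc t * (t * n ^ ((p + 1) / 2) * t⁻¹) = t * t * n ^ ((p + 1) / 2) * t⁻¹ := by group
          _ = _ := by rw [htt, ht', one_mul]
      have hk : (p + 1) / 2 + (p + 1) / 2 = p + 1 := by
        have := (hp.odd_of_ne_two hp2)
        rw [Nat.odd_iff] at this
        omega
      rw [mul_assoc, h2, ← mul_assoc, ← pow_add, hk, pow_succ, hexp n hn, one_mul]
    have hC : ∀ g : G, ∃ m ∈ N, t * (m * g) = (m * g) * t := by
      intro g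
      have hmemN : g * t * g⁻¹ * t⁻¹ ∈ N := by
        refine hcent _ fun n hn => ?_
        have hn1 := ‹N.Normal›.conj_mem n hn g⁻¹
        rw [inv_inv] at hn1
        have e1 : t⁻¹ * n = n⁻¹ * t⁻¹ := by
          rw [ht', ← hinv n hn, ht']
          rw [mul_assoc, htt, mul_one]
        have e2 : t * (g⁻¹ * n⁻¹ * g) = g⁻¹ * n * g * t := by
          have := hinv _ (N.inv_mem hn1)
          rw [inv_inv] at this
          rw [← this]
          group
        calc g * t * g⁻¹ * t⁻¹ * n = g * t * g⁻¹ * (t⁻¹ * n) := by group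
          _ = g * (t * (g⁻¹ * n⁻¹ * g)) * g⁻¹ * t⁻¹ := by rw [e1]; group
          _ = g * (g⁻¹ * n * g * t) * g⁻¹ * t⁻¹ := by rw [e2]
          _ = n * (g * t * g⁻¹ * t⁻¹) := by group
      obtain ⟨m, hm, hmt⟩ := hhalf _ hmemN
      refine ⟨m⁻¹, N.inv_mem hm, ?_⟩
      rw [inv_mul_cancel_right] at hmt
      calc t * (m⁻¹ * g) = m⁻¹ * (m * t * m⁻¹) * g := by group
        _ = m⁻¹ * g * t := by rw [hmt]; group
    obtain ⟨P⟩ : Nonempty (Sylow p G) := inferInstance
    have hNP := normal_le_sylow p N hNp P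
    have hne : ¬ (P : Subgroup G) ≤ N := fun hle => by
      rw [le_antisymm hNP hle] at hdvd
      exact P.not_dvd_index hdvd
    obtain ⟨y₀, hy₀P, hy₀N⟩ := SetLike.not_le_iff_exists.1 hne
    obtain ⟨m, hm, hyt⟩ := hC y₀
    set y := m * y₀ with hy
    have hyN : y ∉ N := fun hmem => hy₀N (by
      rw [hy, Subgroup.mul_mem_cancel_left _ hm] at hmem
      exact hmem)
    have hyP : y ∈ (P : Subgroup G) := mul_mem (hNP hm) hy₀P
    have : Nontrivial ↥(P : Subgroup G) := (Subgroup.nontrivial_iff_ne_bot _).2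
      fun h => hN1 (eq_bot_iff.2 (h ▸ hNP))
    obtain ⟨z, hz⟩ := (Subgroup.nontrivial_iff_exists_ne_one _).1 P.2.center_nontrivial
    have hzN : (z : G) ∈ N := center_le hG hx p N hN hNp P ⟨z, hz.1, rfl⟩
    let f : Subgroup.centralizer ({y} : Set G) →* G ⧸ N :=
      (QuotientGroup.mk' N).comp (Subgroup.centralizer ({y} : Set G)).subtype
    have hle : Subgroup.centralizer ({(y : G ⧸ N)} : Set (G ⧸ N)) ≤ f.range := by
      intro q hq
      obtain ⟨g, rfl⟩ := QuotientGroup.mk'_surjective N q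
      obtain ⟨m', hm', hgt⟩ := hC g
      have hq' : ((m' * g : G) : G ⧸ N) = g := by
        rw [QuotientGroup.mk_mul, (QuotientGroup.eq_one_iff m').2 hm', one_mul]
      rw [Subgroup.mem_centralizer_singleton_iff] at hq
      have hmem : m' * g * y * (m' * g)⁻¹ * y⁻¹ ∈ N := by
        rw [← QuotientGroup.eq_one_iff, QuotientGroup.mk_mul, QuotientGroup.mk_mul,
          QuotientGroup.mk_mul, QuotientGroup.mk_inv, QuotientGroup.mk_inv, hq']
        rw [show (g : G ⧸ N) * y = (y : G ⧸ N) * g from hq]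
        group
      have h1 := hfpf _ hmem ((Commute.mul_right ((Commute.mul_right hgt hyt).mul_right
        (Commute.inv_right hgt)) (Commute.inv_right hyt)).eq)
      refine ⟨⟨m' * g, Subgroup.mem_centralizer_singleton_iff.2 ?_⟩, hq'⟩
      exact mul_inv_eq_iff_eq_mul.1 (mul_inv_eq_one.1 h1)
    have hker : 1 < Nat.card f.ker := by
      rw [Subgroup.one_lt_card_iff_ne_bot, Subgroup.ne_bot_iff_exists_ne_one]
      refine ⟨⟨⟨(z : G), Subgroup.mem_centralizer_singleton_iff.2 ?_⟩, ?_⟩, ?_⟩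
      · exact (congrArg Subtype.val (Subgroup.mem_center_iff.1 hz.1 ⟨y, hyP⟩)).symm
      · exact (QuotientGroup.eq_one_iff (z : G)).2 hzN
      · exact fun h => hz.2 (Subtype.ext (congrArg (fun a : f.ker => ((a : _) : G)) h))
    have h1 := f.ker.index_mul_card
    rw [Subgroup.index_ker] at h1
    have h2 := Nat.le_of_dvd Nat.card_pos (Subgroup.card_dvd_of_le hle)
    rw [← card_centralizer_eq hG hx N hN hyN, ← h1] at h2
    have hpos : 0 < Nat.card f.range := Nat.card_pos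
    nlinarith

/-- Then the group is a doubly transitive Frobenius group. -/
theorem exists_isFrobeniusComplement (hG : 2 < Nat.card G) (hx : IsTwoSupport χ x) (hN : N = supp χ)
    (hNp : IsPGroup p N) (hN1 : N ≠ ⊥) (hidx : ¬ p ∣ N.index) :
    ∃ H : Subgroup G, Cfsg.IsFrobeniusComplement H ∧ Cfsg.frobeniusKernel H = (N : Set G) ∧
      Nat.card H + 1 = Nat.card N := by
  have hp : p.Prime := Fact.out
  obtain ⟨a, ha⟩ := IsPGroup.iff_card.1 hNp
  obtain ⟨H, hH⟩ := Subgroup.exists_right_complement'_of_coprime (N := N)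
    (ha ▸ Nat.Coprime.pow_left a (hp.coprime_iff_not_dvd.2 hidx))
  have hcard : Nat.card H = N.index := (hH.symm.index_eq_card).symm
  have hS : ∀ P : Sylow p G, (P : Subgroup G) = N := fun P => by
    refine (Subgroup.eq_of_le_of_card_ge (normal_le_sylow p N hNp P) ?_).symm
    rw [P.card_eq_multiplicity, ← (hNp.toSylow hidx).card_eq_multiplicity]
    rfl
  have hcent : ∀ n ∈ N, n ≠ 1 → Subgroup.centralizer ({n} : Set G) = N := fun n hn hn1 => by
    obtain ⟨P, hP⟩ := exists_sylow_centralizer hG hx p N hN hNp hn hn1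
    rw [hP, hS P]
  obtain ⟨n₀, hn₀, hn₀1⟩ := (Subgroup.bot_or_exists_ne_one N).resolve_left hN1
  have hsum : Nat.card H + 1 = Nat.card N := by
    have h := index_centralizer_of_mem hG hx (hN ▸ hn₀) hn₀1
    rw [hcent n₀ hn₀ hn₀1, ← hN] at h
    rw [hcard, h]
  have hFrob : Cfsg.IsFrobeniusComplement H := by
    rw [CfsgLib.Frobenius.isFrobeniusComplement_iff]
    refine ⟨fun h0 => ?_, fun h0 => ?_, fun g h hh h1 hgh => ?_⟩
    · rw [h0, Subgroup.card_bot] at hsum
      have := hH.card_mul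
      rw [h0, Subgroup.card_bot, mul_one] at this
      omega
    · rw [h0, Subgroup.card_top] at hsum
      have := Subgroup.card_le_card_group N
      omega
    · obtain ⟨⟨⟨n, hn⟩, ⟨k, hk⟩⟩, hg⟩ := hH.2 g
      simp only at hg
      subst hg
      by_cases hn1 : n = 1
      · simpa [hn1] using hk
      have hk' : k * h * k⁻¹ ∈ H := mul_mem (mul_mem hk hh) (H.inv_mem hk)
      have h2 : n * (k * h * k⁻¹) * n⁻¹ * (k * h * k⁻¹)⁻¹ = 1 := by
        refine (Subgroup.disjoint_def.1 hH.disjoint) ?_ ?_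
        · rw [mul_assoc, mul_assoc n, ← mul_assoc _ n⁻¹]
          exact mul_mem hn (‹N.Normal›.conj_mem _ (N.inv_mem hn) _)
        · refine mul_mem ?_ (H.inv_mem hk')
          simpa [mul_assoc] using hgh
      have h3 : k * h * k⁻¹ ∈ N := hcent n hn hn1 ▸ Subgroup.mem_centralizer_singleton_iff.2
        (mul_inv_eq_iff_eq_mul.1 (mul_inv_eq_one.1 h2)).symm
      have h4 := (Subgroup.disjoint_def.1 hH.disjoint) h3 hk'
      exact absurd (conj_eq_one_iff.1 h4) h1
  refine ⟨H, hFrob, ?_, hsum⟩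
  exact (CfsgLib.Frobenius.coe_eq_frobeniusKernel hFrob inferInstance
    hH.index_eq_card.symm hH.disjoint.eq_bot).symm

/-- Conversely the kernel of such a Frobenius group is the `p`-core. -/
theorem eq_pCore_of_frobenius (hNp : IsPGroup p N) (hN1 : N ≠ ⊥) {H : Subgroup G}
    (hH : Cfsg.IsFrobeniusComplement H) (hK : Cfsg.frobeniusKernel H = (N : Set G)) :
    N = Cfsg.pCore p G := by
  refine le_antisymm (CfsgLib.BaerSuzuki.normal_pgroup_le_pCore inferInstance hNp) (sSup_le ?_)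
  rintro M ⟨hM, hMp⟩
  have hidx : ¬ p ∣ N.index := by
    intro h
    rw [CfsgLib.Frobenius.kernel_index hH hK.symm] at h
    obtain ⟨a, ha⟩ := IsPGroup.iff_card.1 hNp
    have ha0 : a ≠ 0 := by
      rintro rfl
      exact hN1 (Subgroup.eq_bot_of_card_eq N (by simpa using ha))
    exact (Fact.out : p.Prime).ne_one (Nat.eq_one_of_dvd_coprimes
      (CfsgLib.Frobenius.kernel_coprime hH hK.symm) (ha ▸ dvd_pow_self p ha0) h)
  exact normal_le_sylow p M hMp (hNp.toSylow hidx)

end CfsgLib.GagolaChar
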