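import Cfsg.Agent.Frobenius.Complement
import Cfsg.Agent.TwoGroup.UniqueInvolution
import Mathlib.RepresentationTheory.Basic
import Mathlib.Algebra.Field.ZMod
import Mathlib.GroupTheory.GroupAction.Quotient

/-!
# A transitive linear group in characteristic three with a normal quaternion subgroup
-/

set_option autoImplicit false
set_option maxHeartbeats 800000

namespace CfsgLib.GagolaChar.Trans57

open CfsgLib.TwoGroup

/-- A sum of two squares vanishes modulo three only trivially. -/
theorem sq_add_sq_three : ∀ a b : ZMod 3, a * a + b * b = 0 → a = 0 ∧ b = 0 := by decide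

theorem sq_ne_neg_one_three : ∀ a : ZMod 3, a * a + 1 ≠ 0 := by decide

variable {V : Type*} [AddCommGroup V] [Module (ZMod 3) V]

theorem triple_zero (v : V) : v + v + v = 0 := by
  have h : ((3 : ℕ) : ZMod 3) • v = 0 := by rw [ZMod.natCast_self, zero_smul]
  rw [Nat.cast_smul_eq_nsmul, show (3 : ℕ) = 1 + 1 + 1 from rfl, add_nsmul, add_nsmul,
    one_nsmul] at h
  exact h

variable {I J : V →ₗ[ZMod 3] V} (hI : ∀ v, I (I v) = -v) (hJ : ∀ v, J (J v) = -v)
  (hJI : ∀ v, J (I v) = -I (J v))

include hI in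
theorem coeff_eq_zero {v : V} (hv : v ≠ 0) {a b : ZMod 3} (h : a • v + b • I v = 0) :
    a = 0 ∧ b = 0 := by
  have h' : a • I v + b • -v = 0 := by
    have := congrArg I h
    rwa [map_add, map_smul, map_smul, hI, map_zero] at this
  refine sq_add_sq_three a b ((smul_eq_zero.1 ?_).resolve_right hv)
  calc (a * a + b * b) • v = a • (a • v + b • I v) - b • (a • I v + b • -v) := by module
    _ = 0 := by rw [h, h', smul_zero, smul_zero, sub_zero]

include hI hJ hJI in
/-- A vector spanning a plane invariant under both generators. -/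
theorem exists_plane_vector [Nontrivial V] : ∃ u : V, u ≠ 0 ∧ J u = u + I u := by
  obtain ⟨v, hv⟩ : ∃ v : V, J v + v - I v ≠ 0 := by
    by_contra hall
    simp only [not_exists, not_not] at hall
    obtain ⟨w, hw⟩ := exists_ne (0 : V)
    have hJv : ∀ v, J v = I v - v := fun v => by
      have := hall v
      rw [sub_eq_zero] at this
      exact eq_sub_of_add_eq this
    have h1 := hJI w
    rw [hJv, hJv, map_sub, hI] at h1
    have h2 : (w + I w) + (w + I w) = 0 := by
      have e : -w - I w + (-w - I w) = 0 := by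
        nth_rw 1 [h1]; abel
      calc (w + I w) + (w + I w) = -((-w - I w) + (-w - I w)) := by abel
        _ = 0 := by rw [e, neg_zero]
    have h3 : w + I w = 0 := by
      have := triple_zero (w + I w)
      rwa [h2, zero_add] at this
    have h4 := hI w
    rw [eq_neg_of_add_eq_zero_right h3, map_neg, eq_neg_of_add_eq_zero_right h3, neg_neg] at h4
    have h5 := triple_zero w
    rw [show w + w = 0 from add_eq_zero_iff_eq_neg.2 h4, zero_add] at h5
    exact hw h5
  refine ⟨_, hv, ?_⟩
  simp only [map_add, map_sub, hJ, hI, hJI]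
  have h := triple_zero v
  have h' : -v = v + v := neg_eq_iff_add_eq_zero.2 (by rw [← add_assoc]; exact h)
  nth_rw 1 [h']
  abel

variable {X : Type*} [Group X] [Finite X] [Finite V] [Nontrivial V]
  (ρ : Representation (ZMod 3) X V)

theorem rep_mul (a b : X) (v : V) : ρ (a * b) v = ρ a (ρ b v) := by
  rw [map_mul, Module.End.mul_apply]

/-- The plane lemma: a transitive group with a fixed point free normal quaternion subgroup. -/
theorem card_eq_nine (Q : Subgroup X) [Q.Normal] (F : Frame Q (2 ^ 2) (-1) (half 2))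
    (hfix : ∀ q : Q, q ≠ 1 → ∀ v : V, ρ q v = v → v = 0)
    (ht : ∀ v w : V, v ≠ 0 → w ≠ 0 → ∃ x : X, ρ x v = w) :
    Nat.card V = 9 := by
  classical
  have hfix' : ∀ q : Q, q ≠ 1 → ∀ v : V, (ρ.comp Q.subtype) q v = v → v = 0 := hfix
  have hz : ∀ v : V, ρ (F.e 2 : X) v = -v := by
    refine Frobenius.Linear.involution_eq_neg (ρ := ρ.comp Q.subtype) hfix' (a := F.e 2) ?_ ?_
    · rw [Ne, F.e_eq_one]; decide
    · rw [F.e_mul_e, F.e_eq_one]; decide
  set i : X := (F.e 1 : X) with hi
  set j : X := (F.y : X) with hj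
  let I := ρ i
  let J := ρ j
  have hI : ∀ v, I (I v) = -v := by
    intro v
    rw [← hz v, ← rep_mul ρ i i v]
    refine congrArg (fun x => ρ x v) ?_
    rw [hi, ← Subgroup.coe_mul, F.e_mul_e]
    rfl
  have hJ : ∀ v, J (J v) = -v := by
    intro v
    rw [← hz v, ← rep_mul ρ j j v]
    refine congrArg (fun x => ρ x v) ?_
    rw [hj, ← Subgroup.coe_mul, F.y_sq]
    rfl
  have hJI : ∀ v, J (I v) = -I (J v) := by
    intro v
    rw [← hz (I (J v)), ← rep_mul ρ j i v, ← rep_mul ρ i j v, ← rep_mul ρ _ (i * j) v]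
    refine congrArg (fun x => ρ x v) ?_
    rw [hi, hj, ← Subgroup.coe_mul, ← Subgroup.coe_mul, ← Subgroup.coe_mul, F.conj_y,
      ← mul_assoc, F.e_mul_e]
    rfl
  obtain ⟨u, hu, hJu⟩ := exists_plane_vector hI hJ hJI
  -- the plane of `u` is invariant under the subgroup
  have hplane : ∀ k : Q, ∀ a b : ZMod 3, ∃ c d : ZMod 3,
      ρ (k : X) (a • u + b • I u) = c • u + d • I u := by
    let K : Submonoid X :=
      { carrier := {x | ∀ a b : ZMod 3, ∃ c d : ZMod 3, ρ x (a • u + b • I u) = c • u + d • I u}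
        one_mem' := fun a b => ⟨a, b, by rw [map_one]; rfl⟩
        mul_mem' := fun {x y} hx hy a b => by
          obtain ⟨c, d, h⟩ := hy a b
          obtain ⟨c', d', h'⟩ := hx c d
          exact ⟨c', d', by rw [rep_mul, h, h']⟩ }
    have hiK : i ∈ K := fun a b => ⟨-b, a, by
      show I (a • u + b • I u) = _
      rw [map_add, map_smul, map_smul, hI]; module⟩
    have hjK : j ∈ K := fun a b => ⟨a + b, a - b, by
      show J (a • u + b • I u) = _
      rw [map_add, map_smul, map_smul, hJI, hJu, map_add, hI]; module⟩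
    have he : ∀ t : ZMod (2 ^ 2), (F.e t : X) ∈ K := by
      intro t
      have : (F.e t : X) = i ^ t.val := by
        rw [hi, ← Subgroup.coe_pow, ← F.map_nsmul, mul_one, ZMod.natCast_zmod_val]
      rw [this]
      exact pow_mem hiK _
    intro k
    obtain ⟨t, ht' | ht'⟩ := F.cover k
    · rw [ht']; exact he t
    · rw [ht', Subgroup.coe_mul]; exact mul_mem (he t) hjK
  -- transport to every non-zero vector
  have hall : ∀ w : V, w ≠ 0 → ∃ a b : ZMod 3, J w = a • w + b • I w := by
    intro w hw
    obtain ⟨x, hx⟩ := ht u w hu hw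
    have hk : ∀ k : Q, ∃ a b : ZMod 3, ρ (k : X) w = a • w + b • ρ x (I u) := by
      intro k
      let k' : Q := ⟨x⁻¹ * k * x, by
        simpa using Subgroup.Normal.conj_mem ‹Q.Normal› _ k.2 x⁻¹⟩
      obtain ⟨a, b, h⟩ := hplane k' 1 0
      refine ⟨a, b, ?_⟩
      rw [one_smul, zero_smul, add_zero] at h
      have h' := congrArg (ρ x) h
      rw [map_add, map_smul, map_smul, hx, ← rep_mul] at h'
      rw [← h', ← hx, ← rep_mul]
      simp [k', mul_assoc]
    obtain ⟨a₁, b₁, h₁⟩ := hk ⟨i, (F.e 1).2⟩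
    obtain ⟨a₂, b₂, h₂⟩ := hk ⟨j, F.y.2⟩
    change I w = _ at h₁
    change J w = _ at h₂
    have hb₁ : b₁ ≠ 0 := by
      rintro rfl
      rw [zero_smul, add_zero] at h₁
      have h := hI w
      rw [h₁, map_smul, h₁, smul_smul] at h
      exact sq_ne_neg_one_three a₁ ((smul_eq_zero.1 (by
        rw [add_smul, one_smul, h, neg_add_cancel])).resolve_right hw)
    have hr : ρ x (I u) = b₁⁻¹ • (I w - a₁ • w) := by
      rw [h₁, add_sub_cancel_left, smul_smul, inv_mul_cancel₀ hb₁, one_smul]
    refine ⟨a₂ - b₂ * b₁⁻¹ * a₁, b₂ * b₁⁻¹, ?_⟩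
    rw [h₂, hr]
    module
  -- the space is one such plane
  obtain ⟨v, hv⟩ := exists_ne (0 : V)
  let f : ZMod 3 × ZMod 3 → V := fun c => c.1 • v + c.2 • I v
  have hsurj : Function.Surjective f := by
    intro w
    by_contra hw
    have hnotS : ∀ A B : ZMod 3, w ≠ A • v + B • I v := fun A B h => hw ⟨(A, B), h.symm⟩
    obtain ⟨a, b, hab⟩ := hall v hv
    have key : ∀ w : V, (∀ A B : ZMod 3, w ≠ A • v + B • I v) →
        J w = a • w + b • I w := by
      intro w hwS
      have hw0 : w ≠ 0 := fun h => hwS 0 0 (by rw [h]; module)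
      have hvw : v + w ≠ 0 := fun h => hwS (-1) 0 (by
        rw [eq_neg_of_add_eq_zero_right h]; module)
      obtain ⟨a', b', hab'⟩ := hall w hw0
      obtain ⟨a'', b'', hab''⟩ := hall _ hvw
      rw [map_add, map_add, hab, hab'] at hab''
      obtain ⟨c, d, hc, hd⟩ : ∃ c d, c = a' - a'' ∧ d = b' - b'' := ⟨_, _, rfl, rfl⟩
      have e : c • w + d • I w = (a'' - a) • v + (b'' - b) • I v := by
        rw [hc, hd]
        calc (a' - a'') • w + (b' - b'') • I w
            = (a • v + b • I v + (a' • w + b' • I w)) - (a'' • (v + w) + b'' • (I v + I w))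
              + ((a'' - a) • v + (b'' - b) • I v) := by module
          _ = (a'' - a) • v + (b'' - b) • I v := by rw [hab'', sub_self, zero_add]
      have e' : c • I w + d • -w = (a'' - a) • I v + (b'' - b) • -v := by
        have := congrArg I e
        simpa only [map_add, map_smul, hI] using this
      have hcd : c = 0 ∧ d = 0 := by
        refine sq_add_sq_three c d (by_contra fun hne => ?_)
        refine hwS ((c * c + d * d)⁻¹ * (c * (a'' - a) + d * (b'' - b)))
          ((c * c + d * d)⁻¹ * (c * (b'' - b) - d * (a'' - a))) ?_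
        calc w = (c * c + d * d)⁻¹ • ((c * c + d * d) • w) := by
              rw [smul_smul, inv_mul_cancel₀ hne, one_smul]
          _ = (c * c + d * d)⁻¹ • (c • (c • w + d • I w) - d • (c • I w + d • -w)) := by
              congr 1; module
          _ = _ := by rw [e, e']; module
      rw [hcd.1, hcd.2, zero_smul, zero_smul, add_zero] at e
      obtain ⟨h1, h2⟩ := coeff_eq_zero hI hv e.symm
      rw [hab']
      have h3 := sub_eq_zero.1 (hc ▸ hcd.1 : a' - a'' = 0)
      have h4 := sub_eq_zero.1 (hd ▸ hcd.2 : b' - b'' = 0)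
      rw [h3, h4, sub_eq_zero.1 h1, sub_eq_zero.1 h2]
    have k1 := key w hnotS
    have hIw : ∀ A B : ZMod 3, I w ≠ A • v + B • I v := by
      intro A B h
      refine hnotS B (-A) ?_
      rw [← neg_neg w, ← hI w, h, map_add, map_smul, map_smul, hI]
      module
    have k2 := key _ hIw
    rw [hJI, k1, map_add, map_smul, map_smul, hI] at k2
    have hw0 : w ≠ 0 := fun h => hnotS 0 0 (by rw [h]; module)
    obtain ⟨hb0, ha0⟩ := coeff_eq_zero hI hw0 (show (-b - b) • w + (a + a) • I w = 0 by
      calc (-b - b) • w + (a + a) • I w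
          = (a • I w + b • -w) - -(a • I w + b • -w) := by module
        _ = 0 := sub_eq_zero.2 k2.symm)
    have two : ∀ t : ZMod 3, (-t - t = 0 → t = 0) ∧ (t + t = 0 → t = 0) := by decide
    have h0 := hJ w
    rw [k1, (two a).2 ha0, (two b).1 hb0, zero_smul, zero_smul, add_zero, map_zero] at h0
    exact hw0 (neg_eq_zero.1 h0.symm)
  have hinj : Function.Injective f := by
    intro c d h
    obtain ⟨h1, h2⟩ := coeff_eq_zero hI hv (show (c.1 - d.1) • v + (c.2 - d.2) • I v = 0 by
      calc (c.1 - d.1) • v + (c.2 - d.2) • I v = f c - f d := by simp only [f]; module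
        _ = 0 := by rw [h, sub_self])
    exact Prod.ext (sub_eq_zero.1 h1) (sub_eq_zero.1 h2)
  rw [← Nat.card_eq_of_bijective f ⟨hinj, hsurj⟩, Nat.card_prod, Nat.card_zmod]

/-- The index of the quaternion subgroup is at most three. -/
theorem index_le_three (Q : Subgroup X) [Q.Normal] (F : Frame Q (2 ^ 2) (-1) (half 2))
    (hfix : ∀ q : Q, q ≠ 1 → ∀ v : V, ρ q v = v → v = 0)
    (hinj : ∀ x : X, (∀ v : V, ρ x v = v) → x = 1)
    (ht : ∀ v w : V, v ≠ 0 → w ≠ 0 → ∃ x : X, ρ x v = w)
    (hs : ∀ v : V, v ≠ 0 → ∀ x : X, ρ x v = v → ∃ k : ℕ, x ^ 3 ^ k = 1) :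
    Q.index = 1 ∨ Q.index = 3 := by
  classical
  haveI : Fact (Nat.Prime 3) := ⟨Nat.prime_three⟩
  haveI := Fintype.ofFinite V
  have h9 := card_eq_nine ρ Q F hfix ht
  obtain ⟨v, hv⟩ := exists_ne (0 : V)
  let S : Subgroup X :=
    { carrier := {x | ρ x v = v}
      one_mem' := by simp
      mul_mem' := fun {a b} ha hb => by
        show ρ (a * b) v = v
        rw [rep_mul, hb, ha]
      inv_mem' := fun {a} ha => by
        show ρ a⁻¹ v = v
        conv_lhs => rw [← ha, ← rep_mul, inv_mul_cancel, map_one]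
        rfl }
  have hSp : IsPGroup 3 S := by
    intro x
    obtain ⟨k, hk⟩ := hs v hv x x.2
    exact ⟨k, Subtype.ext hk⟩
  have hne : ∀ x : X, ρ x v ≠ 0 := fun x h => hv (by
    have h' := congrArg (ρ x⁻¹) h
    rwa [← rep_mul, inv_mul_cancel, map_one, map_zero] at h')
  have horb : S.index = 8 := by
    let f : X ⧸ S → {w : V // w ≠ 0} := fun q => ⟨ρ q.out v, hne _⟩
    have hf : Function.Bijective f := by
      refine ⟨fun a b h => ?_, ?_⟩
      · rw [← QuotientGroup.out_eq' a, ← QuotientGroup.out_eq' b, QuotientGroup.eq]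
        have h' : ρ a.out v = ρ b.out v := congrArg Subtype.val h
        show ρ (a.out⁻¹ * b.out) v = v
        rw [rep_mul, ← h', ← rep_mul, inv_mul_cancel, map_one]
        rfl
      · rintro ⟨w, hw⟩
        obtain ⟨x, hx⟩ := ht v w hv hw
        refine ⟨(x : X ⧸ S), Subtype.ext ?_⟩
        obtain ⟨s, hs'⟩ := QuotientGroup.mk_out_eq_mul S x
        show ρ (Quotient.out (x : X ⧸ S)) v = w
        rw [hs', rep_mul, show ρ (s : X) v = v from s.2, hx]
    rw [Subgroup.index, Nat.card_eq_of_bijective f hf, Nat.card_eq_fintype_card,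
      Fintype.card_subtype_compl, Fintype.card_subtype_eq, ← Nat.card_eq_fintype_card, h9]
  have hS6 : Nat.card S ≤ 6 := by
    set e : V := ρ (F.e 1 : X) v with he
    have hI : ∀ w : V, ρ (F.e 1 : X) (ρ (F.e 1 : X) w) = -w := by
      intro w
      rw [← rep_mul, ← Subgroup.coe_mul, F.e_mul_e]
      exact Frobenius.Linear.involution_eq_neg (ρ := ρ.comp Q.subtype) hfix
        (a := F.e (1 + 1)) (by rw [Ne, F.e_eq_one]; decide)
        (by rw [F.e_mul_e, F.e_eq_one]; decide) w
    have hind : ∀ c : ZMod 3, e ≠ c • v := by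
      intro c h
      have := coeff_eq_zero (I := ρ (F.e 1 : X)) hI hv (a := -c) (b := 1)
        (by rw [one_smul, ← he, h]; module)
      exact one_ne_zero this.2
    let g : S → {w : V // ∀ c : ZMod 3, w ≠ c • v} := fun x => ⟨ρ (x : X) e, fun c h => by
      refine hind c ?_
      have h' := congrArg (ρ (x : X)⁻¹) h
      rw [← rep_mul, inv_mul_cancel, map_one, map_smul,
        show ρ (x : X)⁻¹ v = v from (x⁻¹).2] at h'
      exact h'⟩
    have hg : Function.Injective g := by
      intro x y h
      have h' : ρ (x : X) e = ρ (y : X) e := congrArg Subtype.val h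
      refine Subtype.ext (inv_mul_eq_one.1 (hinj _ fun w => ?_))
      have hve : ∀ w : V, ∃ a b : ZMod 3, w = a • v + b • e := by
        have hb : Function.Bijective fun c : ZMod 3 × ZMod 3 => c.1 • v + c.2 • e := by
          refine Function.Injective.bijective_of_nat_card_le (fun c d hcd => ?_) (by
            rw [Nat.card_prod, Nat.card_zmod, h9])
          obtain ⟨h1, h2⟩ := coeff_eq_zero (I := ρ (F.e 1 : X)) hI hv
            (show (c.1 - d.1) • v + (c.2 - d.2) • ρ (F.e 1 : X) v = 0 by
              rw [← he]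
              calc (c.1 - d.1) • v + (c.2 - d.2) • e
                  = (c.1 • v + c.2 • e) - (d.1 • v + d.2 • e) := by module
                _ = 0 := by rw [show c.1 • v + c.2 • e = d.1 • v + d.2 • e from hcd, sub_self])
          exact Prod.ext (sub_eq_zero.1 h1) (sub_eq_zero.1 h2)
        intro w
        obtain ⟨c, hc⟩ := hb.2 w
        exact ⟨c.1, c.2, hc.symm⟩
      obtain ⟨a, b, rfl⟩ := hve w
      rw [map_add, map_smul, map_smul, rep_mul, rep_mul, show ρ (y : X) v = v from y.2,
        show ρ (x : X)⁻¹ v = v from (x⁻¹).2, ← h', ← rep_mul, inv_mul_cancel, map_one]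
      rfl
    have h6 := Nat.card_le_card_of_injective g hg
    refine h6.trans ?_
    have hmul : Nat.card {w : V // ∀ c : ZMod 3, w ≠ c • v} + Nat.card (ZMod 3) ≤ Nat.card V := by
      rw [← Nat.card_sum]
      refine Nat.card_le_card_of_injective (Sum.elim Subtype.val fun c => c • v) ?_
      refine Subtype.val_injective.sumElim ?_ ?_
      · intro c d h
        exact sub_eq_zero.1 ((smul_eq_zero.1 (show (c - d) • v = 0 by
          rw [sub_smul]; exact sub_eq_zero.2 h)).resolve_right hv)
      · intro w c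
        exact w.2 c
    rw [Nat.card_zmod, h9] at hmul
    omega
  obtain ⟨k, hk⟩ := IsPGroup.iff_card.1 hSp
  have hX := S.card_mul_index
  rw [horb, ← Q.card_mul_index, F.card_eq] at hX
  have hQS : Q.index = 3 ^ k := by rw [← hk]; omega
  rw [hk] at hS6
  rcases k with _ | _ | k
  · exact Or.inl hQS
  · exact Or.inr hQS
  · have := Nat.one_le_pow k 3 (by norm_num)
    rw [pow_succ, pow_succ] at hS6
    omega

end CfsgLib.GagolaChar.Trans57
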