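import Cfsg.Agent.GagolaChar.Basic
import Mathlib.GroupTheory.Nilpotent

/-!
# Sylow subgroups for a group with a character nonzero on two classes
-/

noncomputable section

open scoped ComplexConjugate

namespace CfsgLib.GagolaChar

open Cfsg CfsgLib.Chars

universe u

variable {G : Type u} [Group G] [Finite G] {χ : IrrCharacter G} {x : G}

theorem normal_le_sylow (p : ℕ) [Fact p.Prime] (N : Subgroup G) [N.Normal] (hNp : IsPGroup p N)
    (P : Sylow p G) : N ≤ (P : Subgroup G) := by
  obtain ⟨Q, hQ⟩ := hNp.exists_le_sylow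
  obtain ⟨g, hg⟩ := MulAction.exists_smul_eq G Q P
  intro n hn
  rw [← hg, ← SetLike.mem_coe, Sylow.coe_subgroup_smul, Subgroup.coe_pointwise_smul]
  refine ⟨g⁻¹ * n * g, hQ (by simpa using ‹N.Normal›.conj_mem n hn g⁻¹), ?_⟩
  simp [mul_assoc]

theorem card_supp_eq_index_add_one (hG : 2 < Nat.card G) (hx : IsTwoSupport χ x) :
    Nat.card (supp χ) = (Subgroup.centralizer ({x} : Set G)).index + 1 := by
  classical
  have := Fintype.ofFinite G
  rw [← card_carrier_eq_index]
  have e : Nat.card (ConjClasses.mk x).carrier = Nat.card {n : supp χ // n ≠ 1} := by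
    refine Nat.card_congr ⟨fun g => ?_, fun n => ?_, ?_, ?_⟩
    · have hc : IsConj x g.1 :=
        (ConjClasses.mk_eq_mk_iff_isConj.1 (ConjClasses.mem_carrier_iff_mk_eq.1 g.2)).symm
      refine ⟨⟨g.1, (map_ne_zero_iff hG hx _).1 ((hx.2 _).2 (Or.inr hc))⟩, fun h => hx.1 ?_⟩
      exact isConj_one_left.1 (by rw [← show g.1 = 1 from congrArg Subtype.val h]; exact hc)
    · exact ⟨n.1.1, ConjClasses.mem_carrier_iff_mk_eq.2 (ConjClasses.mk_eq_mk_iff_isConj.2
        (isConj_of_mem_supp hG hx n.1.2 fun h => n.2 (Subtype.ext h)).symm)⟩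
    · exact fun _ => Subtype.ext rfl
    · exact fun _ => Subtype.ext (Subtype.ext rfl)
  rw [e, Nat.card_eq_fintype_card, Nat.card_eq_fintype_card, Fintype.card_subtype_compl,
    Fintype.card_subtype_eq]
  have := Fintype.card_pos (α := supp χ)
  omega

theorem index_centralizer_of_mem (hG : 2 < Nat.card G) (hx : IsTwoSupport χ x) {y : G}
    (hy : y ∈ supp χ) (hy1 : y ≠ 1) :
    (Subgroup.centralizer ({y} : Set G)).index + 1 = Nat.card (supp χ) := by
  rw [card_supp_eq_index_add_one hG hx, ← card_carrier_eq_index, ← card_carrier_eq_index,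
    ConjClasses.mk_eq_mk_iff_isConj.2 (isConj_of_mem_supp hG hx hy hy1).symm]

/-- A centralizer of a nontrivial element of the support is a Sylow subgroup. -/
theorem exists_sylow_centralizer (hG : 2 < Nat.card G) (hx : IsTwoSupport χ x) (p : ℕ) [Fact p.Prime]
    (N : Subgroup G) (hN : N = supp χ) (hNp : IsPGroup p N) {y : G} (hy : y ∈ N) (hy1 : y ≠ 1) :
    ∃ P : Sylow p G, Subgroup.centralizer ({y} : Set G) = P := by
  have hp : p.Prime := Fact.out
  obtain ⟨k, hk⟩ := IsPGroup.iff_orderOf.1 hNp ⟨y, hy⟩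
  have hC : IsPGroup p (Subgroup.centralizer ({y} : Set G)) := by
    intro c
    have hdvd : ∀ q : ℕ, q.Prime → q ∣ orderOf c → q = p := by
      intro q hq hqd
      by_contra hne
      set d := c ^ (orderOf c / q)
      have hd : orderOf d = q := orderOf_pow_orderOf_div (orderOf_pos c).ne' hqd
      have hdo : orderOf (d : G) = q := by rw [Subgroup.orderOf_coe, hd]
      have hdN : (d : G) ∉ N := by
        intro h
        obtain ⟨j, hj⟩ := IsPGroup.iff_orderOf.1 hNp ⟨d, h⟩
        have hj' : orderOf (d : G) = p ^ j := by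
          rw [← hj]
          exact Subgroup.orderOf_coe (⟨(d : G), h⟩ : N)
        rw [hdo] at hj'
        exact hne ((Nat.prime_dvd_prime_iff_eq hq hp).1 (hq.dvd_of_dvd_pow (dvd_of_eq hj')))
      have hcomm : Commute y (d : G) :=
        (Subgroup.mem_centralizer_singleton_iff.1 d.2).symm
      have hconj := isConj_mul_of_notMem hG hx (hN ▸ hy) (hN ▸ hdN)
      have ho : orderOf (y * (d : G)) = orderOf (d : G) := by
        obtain ⟨e, he⟩ := isConj_iff.1 hconj
        rw [← he]
        exact (MulEquiv.orderOf_eq (MulAut.conj e) _)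
      have hcop : Nat.Coprime (orderOf y) (orderOf (d : G)) := by
        rw [hdo, ← Subgroup.orderOf_mk y hy, hk]
        exact Nat.Coprime.pow_left _ ((Nat.coprime_primes hp hq).2 (Ne.symm hne))
      rw [hcomm.orderOf_mul_eq_mul_orderOf_of_coprime hcop] at ho
      have : orderOf y = 1 := by
        have hpos := orderOf_pos (d : G)
        exact Nat.eq_of_mul_eq_mul_right hpos (ho.trans (one_mul _).symm)
      exact hy1 (orderOf_eq_one_iff.1 this)
    exact ⟨(orderOf c).primeFactorsList.length, orderOf_dvd_iff_pow_eq_one.1 <| by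
      conv_lhs => rw [Nat.eq_prime_pow_of_unique_prime_dvd (orderOf_pos c).ne'
        fun {d} hd hd' => hdvd d hd hd']⟩
  have hidx : ¬ p ∣ (Subgroup.centralizer ({y} : Set G)).index := by
    intro h
    obtain ⟨a, ha⟩ := IsPGroup.iff_card.1 hNp
    have hc := index_centralizer_of_mem hG hx (hN ▸ hy) hy1
    rw [← hN, ha] at hc
    rcases Nat.eq_zero_or_pos a with rfl | ha0
    · rw [pow_zero] at ha
      exact hy1 (by simpa using (Subgroup.eq_bot_of_card_eq N ha ▸ hy : y ∈ (⊥ : Subgroup G)))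
    · have h2 : p ∣ p ^ a := dvd_pow_self p ha0.ne'
      rw [← hc, Nat.dvd_add_right h, Nat.dvd_one] at h2
      exact hp.ne_one h2
  exact ⟨hC.toSylow hidx, rfl⟩

/-- The inertia group of a nontrivial character of the support is a Sylow subgroup. -/
theorem exists_sylow_inertia (hG : 2 < Nat.card G) (hx : IsTwoSupport χ x) (p : ℕ) [Fact p.Prime]
    (N : Subgroup G) [N.Normal] (hN : N = supp χ) (hNp : IsPGroup p N) (μ : IrrCharacter N)
    (hμ : (μ : N → ℂ) ≠ fun _ => 1) :
    ∃ P : Sylow p G, ∀ g : G, g ∈ (P : Subgroup G) ↔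
      ∀ n n' : N, (n' : G) = g * n * g⁻¹ → (μ : N → ℂ) n' = (μ : N → ℂ) n := by
  classical
  have := Fintype.ofFinite G
  have := Fintype.ofFinite N
  subst hN
  have hres := CfsgLib.Chars.isCharacter_restrict (isCharacter_coe χ) (supp χ)
  -- every nontrivial character is a constituent
  have hconst : ∀ η : IrrCharacter (supp χ), η ≠ oneChar (supp χ) →
      CfsgLib.Chars.Induced.mult (fun n : supp χ => (χ : G → ℂ) n) η ≠ 0 := by
    intro η hη
    rw [CfsgLib.Chars.Induced.mult_ne_zero_iff hres η, Cfsg.classInner, mul_ne_zero_iff]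
    refine ⟨inv_ne_zero natCard_ne_zero, ?_⟩
    have hval : ∀ n : supp χ, (χ : G → ℂ) n = (χ : G → ℂ) x +
        (if n = 1 then (χ : G → ℂ) 1 - (χ : G → ℂ) x else 0) := by
      intro n
      split_ifs with h
      · subst h; simp
      · rw [add_zero, eq_of_isConj (isClassFunction_coe χ)
          (isConj_of_mem_supp hG hx n.2 fun h' => h (Subtype.ext h'))]
    have h0 : ∑ n : supp χ, conj ((η : supp χ → ℂ) n) = 0 := by
      have h := classInner_of_ne (Ne.symm hη)
      rw [Cfsg.classInner, mul_eq_zero, or_iff_right (inv_ne_zero natCard_ne_zero)] at h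
      simpa using h
    simp only [hval, add_mul, Finset.sum_add_distrib, ← Finset.mul_sum, h0, mul_zero, zero_add,
      ite_mul, zero_mul, Finset.sum_ite_eq', Finset.mem_univ, if_true]
    refine mul_ne_zero (sub_ne_zero.2 (map_x_ne_map_one hG hx).symm) ?_
    rw [conj_map_one (isCharacter_coe η)]
    exact map_one_ne_zero η
  have hμ1 : μ ≠ oneChar (supp χ) := fun h => hμ (by rw [h]; exact oneChar_coe)
  have horb : CfsgLib.Chars.Induced.conjOrbit μ = {η | η ≠ oneChar (supp χ)} := by
    ext η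
    refine ⟨?_, fun hη => CfsgLib.Chars.Induced.mem_conjOrbit_of_mult_ne_zero χ μ η (hconst μ hμ1)
      (hconst η hη)⟩
    rintro ⟨g, rfl⟩ h
    apply hμ1
    have h1 : CfsgLib.Chars.Induced.conjIrr g⁻¹ (CfsgLib.Chars.Induced.conjIrr g μ) = μ := by
      rw [← CfsgLib.Chars.Induced.conjIrr_mul, inv_mul_cancel, CfsgLib.Chars.Induced.conjIrr_one]
    rw [← h1, show CfsgLib.Chars.Induced.conjIrr g μ = oneChar (supp χ) from h]
    refine Subtype.ext (funext fun n => ?_)
    simp [CfsgLib.Chars.Induced.conjFun]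
  obtain ⟨pp, hpp, hel⟩ := exists_isElementaryAbelian hG hx
  have hcomm := hel.1
  have hcardirr : Nat.card (IrrCharacter (supp χ)) = Nat.card (supp χ) := by
    rw [card_irrCharacter]
    refine (Nat.card_eq_of_bijective ConjClasses.mk ⟨fun a b h => ?_, ConjClasses.mk_surjective⟩).symm
    obtain ⟨c, hc⟩ := isConj_iff.1 (ConjClasses.mk_eq_mk_iff_isConj.1 h)
    rw [← hc, hcomm.is_comm.comm c a, mul_inv_cancel_right]
  have hidx : (CfsgLib.Chars.Induced.inertia (supp χ) (μ : supp χ → ℂ)).index + 1 = Nat.card (supp χ) := by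
    rw [← CfsgLib.Chars.Induced.card_conjOrbit, horb, ← hcardirr, Set.coe_ofPred,
      Nat.card_eq_fintype_card, Nat.card_eq_fintype_card, Fintype.card_subtype_compl,
      Fintype.card_subtype_eq]
    have := Fintype.card_pos_iff.2 ⟨oneChar (supp χ)⟩
    omega
  obtain ⟨n, hn, hn1⟩ := (Subgroup.bot_or_exists_ne_one (supp χ)).resolve_left (supp_ne_bot hG hx)
  obtain ⟨Q, hQ⟩ := exists_sylow_centralizer hG hx p (supp χ) rfl hNp hn hn1
  have h2 := index_centralizer_of_mem hG hx hn hn1
  have hcard : Nat.card (CfsgLib.Chars.Induced.inertia (supp χ) (μ : supp χ → ℂ)) = Nat.card Q := by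
    have e1 := (CfsgLib.Chars.Induced.inertia (supp χ) (μ : supp χ → ℂ)).card_mul_index
    have e2 := (Subgroup.centralizer ({n} : Set G)).card_mul_index
    have e3 : (CfsgLib.Chars.Induced.inertia (supp χ) (μ : supp χ → ℂ)).index =
        (Subgroup.centralizer ({n} : Set G)).index := by omega
    rw [← e2, e3] at e1
    rw [Nat.eq_of_mul_eq_mul_right (Nat.pos_of_ne_zero Subgroup.index_ne_zero_of_finite) e1, hQ]
  refine ⟨Sylow.ofCard _ (hcard.trans Q.card_eq_multiplicity), fun g => ?_⟩
  exact CfsgLib.Chars.Induced.mem_inertia_iff_forall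

theorem center_le (hG : 2 < Nat.card G) (hx : IsTwoSupport χ x) (p : ℕ) [Fact p.Prime]
    (N : Subgroup G) [N.Normal] (hN : N = supp χ) (hNp : IsPGroup p N) (P : Sylow p G) :
    (Subgroup.center ↥(P : Subgroup G)).map (P : Subgroup G).subtype ≤ N := by
  classical
  have hp : p.Prime := Fact.out
  have hNP := normal_le_sylow p N hNp P
  rintro _ ⟨z, hz, rfl⟩
  by_contra hzN
  set C := Subgroup.centralizer ({(z : G)} : Set G) with hCdef
  have hPC : (P : Subgroup G) ≤ C := fun a ha => Subgroup.mem_centralizer_singleton_iff.2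
    (congrArg Subtype.val (Subgroup.mem_center_iff.1 hz ⟨a, ha⟩))
  let f : C →* G ⧸ N := (QuotientGroup.mk' N).comp C.subtype
  have hrange : f.range ≤ Subgroup.centralizer ({((z : G) : G ⧸ N)} : Set (G ⧸ N)) := by
    rintro _ ⟨a, rfl⟩
    rw [Subgroup.mem_centralizer_singleton_iff]
    show ((a : G) : G ⧸ N) * ((z : G) : G ⧸ N) = ((z : G) : G ⧸ N) * ((a : G) : G ⧸ N)
    rw [← QuotientGroup.mk_mul, ← QuotientGroup.mk_mul, Subgroup.mem_centralizer_singleton_iff.1 a.2]
  have hker : Nat.card f.ker = Nat.card N := by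
    have h : f.ker = N.subgroupOf C := by
      ext a
      simp [f, Subgroup.mem_subgroupOf]
    rw [h]
    exact Nat.card_congr (Subgroup.subgroupOfEquivOfLe (hNP.trans hPC)).toEquiv
  have h1 := Subgroup.card_dvd_of_le hrange
  rw [show Nat.card (Subgroup.centralizer ({((z : G) : G ⧸ N)} : Set (G ⧸ N))) = Nat.card C from
    (card_centralizer_eq hG hx N hN hzN).symm, ← f.ker.index_mul_card, hker, Subgroup.index_ker] at h1
  -- the image contains the image of the Sylow subgroup
  have h2 : Nat.card ((P : Subgroup G).map (QuotientGroup.mk' N)) * Nat.card N = Nat.card P := by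
    have h := ((QuotientGroup.mk' N).comp (P : Subgroup G).subtype).ker.index_mul_card
    have hk : ((QuotientGroup.mk' N).comp (P : Subgroup G).subtype).ker = N.subgroupOf P := by
      ext a
      simp [Subgroup.mem_subgroupOf]
    rw [Subgroup.index_ker, hk, Nat.card_congr (Subgroup.subgroupOfEquivOfLe hNP).toEquiv,
      MonoidHom.range_eq_map, ← Subgroup.map_map, ← MonoidHom.range_eq_map,
      Subgroup.range_subtype] at h
    exact h
  have h3 : (P : Subgroup G).map (QuotientGroup.mk' N) ≤ f.range := by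
    rintro _ ⟨a, ha, rfl⟩
    exact ⟨⟨a, hPC ha⟩, rfl⟩
  have h4 := Subgroup.card_dvd_of_le h3
  have h5 : Nat.card P * Nat.card N ∣ Nat.card G := by
    have h6 : Nat.card P ∣ Nat.card C := Subgroup.card_dvd_of_le hPC
    have h7 : Nat.card C = Nat.card f.range * Nat.card N := by
      rw [← f.ker.index_mul_card, Subgroup.index_ker, hker]
    have h8 : Nat.card C ∣ Nat.card (G ⧸ N) := by
      rw [show Nat.card C = _ from card_centralizer_eq hG hx N hN hzN]
      exact Subgroup.card_subgroup_dvd_card _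
    have h9 : Nat.card C * Nat.card N ∣ Nat.card G := by
      rw [← Subgroup.index_eq_card] at h8
      rw [← N.index_mul_card]
      exact Nat.mul_dvd_mul_right h8 _
    exact (Nat.mul_dvd_mul_right h6 _).trans h9
  obtain ⟨a, ha⟩ := IsPGroup.iff_card.1 hNp
  have ha0 : a ≠ 0 := by
    rintro rfl
    rw [pow_zero] at ha
    exact supp_ne_bot hG hx (hN ▸ Subgroup.eq_bot_of_card_eq N ha)
  have h10 : Nat.card P * p ∣ Nat.card G :=
    (Nat.mul_dvd_mul_left _ (ha ▸ dvd_pow_self p ha0)).trans h5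
  rw [← (P : Subgroup G).card_mul_index] at h10
  exact P.not_dvd_index (Nat.dvd_of_mul_dvd_mul_left Nat.card_pos h10)

theorem center_eq_iff (hG : 2 < Nat.card G) (hx : IsTwoSupport χ x) (p : ℕ) [Fact p.Prime]
    (N : Subgroup G) [N.Normal] (hN : N = supp χ) (hNp : IsPGroup p N) (hN1 : N ≠ ⊥)
    (P : Sylow p G) :
    (Subgroup.center ↥(P : Subgroup G)).map (P : Subgroup G).subtype = N ↔
      (P : Subgroup G).Normal := by
  classical
  have hNP := normal_le_sylow p N hNp P
  obtain ⟨n, hn, hn1⟩ := (Subgroup.bot_or_exists_ne_one N).resolve_left hN1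
  constructor
  · intro h
    have hcent : ∀ m ∈ N, m ≠ 1 → Subgroup.centralizer ({m} : Set G) = P := by
      intro m hm hm1
      obtain ⟨Q, hQ⟩ := exists_sylow_centralizer hG hx p N hN hNp hm hm1
      have hPQ : (P : Subgroup G) ≤ Subgroup.centralizer ({m} : Set G) := by
        intro a ha
        obtain ⟨z, hz, hzm⟩ := (h ▸ hm : m ∈ (Subgroup.center ↥(P : Subgroup G)).map _)
        rw [Subgroup.mem_centralizer_singleton_iff, ← hzm]
        exact congrArg Subtype.val (Subgroup.mem_center_iff.1 hz ⟨a, ha⟩)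
      rw [hQ] at hPQ ⊢
      exact congrArg Sylow.toSubgroup (Sylow.ext (P.is_maximal' Q.2 hPQ)) 
    refine ⟨fun a ha g => ?_⟩
    have hgn : g⁻¹ * n * g ∈ N := by simpa using ‹N.Normal›.conj_mem n hn g⁻¹
    have hgn1 : g⁻¹ * n * g ≠ 1 := fun h0 => hn1 (by
      calc n = g * (g⁻¹ * n * g) * g⁻¹ := by group
        _ = 1 := by rw [h0]; group)
    rw [← hcent n hn hn1, Subgroup.mem_centralizer_singleton_iff]
    have h2 := Subgroup.mem_centralizer_singleton_iff.1 ((hcent _ hgn hgn1).symm ▸ ha)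
    calc g * a * g⁻¹ * n = g * (a * (g⁻¹ * n * g)) * g⁻¹ := by group
      _ = g * ((g⁻¹ * n * g) * a) * g⁻¹ := by rw [h2]
      _ = n * (g * a * g⁻¹) := by group
  · intro hPn
    refine le_antisymm (center_le hG hx p N hN hNp P) fun m hm => ?_
    refine ⟨⟨m, hNP hm⟩, Subgroup.mem_center_iff.2 fun a => Subtype.ext ?_, rfl⟩
    by_cases hm1 : m = 1
    · subst hm1; simp
    obtain ⟨Q, hQ⟩ := exists_sylow_centralizer hG hx p N hN hNp hm hm1
    have : (Q : Subgroup G) = P := by
      obtain ⟨g, hg⟩ := MulAction.exists_smul_eq G P Q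
      rw [← hg, show g • P = P from Sylow.smul_eq_of_normal]
    have ha : (a : G) ∈ Subgroup.centralizer ({m} : Set G) := by rw [hQ, this]; exact a.2
    exact Subgroup.mem_centralizer_singleton_iff.1 ha

theorem exists_upperCentralSeries_eq (hG : 2 < Nat.card G) (hx : IsTwoSupport χ x) (p : ℕ)
    [Fact p.Prime] (N : Subgroup G) [N.Normal] (hN : N = supp χ) (hNp : IsPGroup p N)
    (P : Sylow p G) :
    ∃ i : ℕ, Subgroup.upperCentralSeries ↥(P : Subgroup G) i = N.subgroupOf (P : Subgroup G) := by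
  classical
  have hp : p.Prime := Fact.out
  set K := N.subgroupOf (P : Subgroup G)
  have hNP := normal_le_sylow p N hNp P
  obtain ⟨m, hm⟩ := (P.isPGroup'.isNilpotent).nilpotent'
  by_cases hall : ∀ i, Subgroup.upperCentralSeries ↥(P : Subgroup G) i ≤ K
  · exact ⟨m, le_antisymm (hall m) (hm ▸ le_top)⟩
  push Not at hall
  have hspec := Nat.find_spec hall
  obtain ⟨i, hi⟩ : ∃ i, Nat.find hall = i + 1 := Nat.exists_eq_succ_of_ne_zero fun h0 => hspec (by
    rw [h0, Subgroup.upperCentralSeries_zero]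
    exact bot_le)
  have hle : Subgroup.upperCentralSeries ↥(P : Subgroup G) i ≤ K :=
    not_not.1 (Nat.find_min hall (by omega))
  refine ⟨i, le_antisymm hle ?_⟩
  by_contra hlt
  obtain ⟨y, hy, hyK⟩ := SetLike.not_le_iff_exists.1 (hi ▸ hspec)
  have hyc := Subgroup.mem_upperCentralSeries_succ_iff.1 hy
  have hyN : (y : G) ∉ N := fun h => hyK h
  let C := Subgroup.centralizer ({(y : G)} : Set G)
  set S := Subgroup.upperCentralSeries ↥(P : Subgroup G) i
  -- the index of the centraliser is a multiple of the order of the support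
  have hidx : Nat.card N ∣ C.index := by
    have h1 := card_centralizer_eq hG hx N hN hyN
    have h2 := C.index_mul_card
    rw [← N.index_mul_card, N.index_eq_card,
      ← (Subgroup.centralizer ({((y : G) : G ⧸ N)} : Set (G ⧸ N))).index_mul_card, ← h1] at h2
    refine ⟨(Subgroup.centralizer ({((y : G) : G ⧸ N)} : Set (G ⧸ N))).index, ?_⟩
    exact Nat.eq_of_mul_eq_mul_right (Nat.card_pos (α := C)) (h2.trans (by ring))
  let D := C.subgroupOf (P : Subgroup G)
  have hD : Nat.card N ∣ D.index := by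
    obtain ⟨a, ha⟩ := IsPGroup.iff_card.1 hNp
    have h1 : C.index ∣ (C ⊓ (P : Subgroup G)).index := Subgroup.index_dvd_of_le inf_le_left
    have h2 : (C ⊓ (P : Subgroup G)).index = D.index * (P : Subgroup G).index := by
      rw [← Subgroup.relIndex_mul_index (inf_le_right : C ⊓ (P : Subgroup G) ≤ P),
        Subgroup.inf_relIndex_right]
      rfl
    have h3 : p ^ a ∣ D.index * (P : Subgroup G).index := ha ▸ h2 ▸ hidx.trans h1
    rw [ha]
    exact (Nat.Coprime.pow_left a (hp.coprime_iff_not_dvd.2 P.not_dvd_index)).dvd_of_dvd_mul_right h3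
  -- commutators with `y` separate the cosets of `D`
  have hy' : ∀ u : (P : Subgroup G), y * u * y⁻¹ * u⁻¹ ∈ S := hyc
  let F : (↥(P : Subgroup G) ⧸ D) → S := fun q => ⟨y * q.out * y⁻¹ * q.out⁻¹, hy' q.out⟩
  have hF : Function.Injective F := by
    intro q r hqr
    have h := congrArg Subtype.val hqr
    simp only [F] at h
    rw [← QuotientGroup.out_eq' q, ← QuotientGroup.out_eq' r, QuotientGroup.eq, Subgroup.mem_subgroupOf,
      Subgroup.mem_centralizer_singleton_iff]
    have h' := congrArg Subtype.val h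
    simp only [Subgroup.coe_mul, InvMemClass.coe_inv, mul_assoc] at h'
    have h'' : (q.out : G) * ((y : G)⁻¹ * (q.out : G)⁻¹) = (r.out : G) * ((y : G)⁻¹ * (r.out : G)⁻¹) :=
      mul_left_cancel h'
    simp only [Subgroup.coe_mul, InvMemClass.coe_inv]
    have h3 : (y : G)⁻¹ * ((q.out : G)⁻¹ * r.out) = (q.out : G)⁻¹ * r.out * (y : G)⁻¹ := by
      calc (y : G)⁻¹ * ((q.out : G)⁻¹ * r.out)
          = (q.out : G)⁻¹ * ((q.out : G) * ((y : G)⁻¹ * (q.out : G)⁻¹)) * r.out := by group
        _ = (q.out : G)⁻¹ * ((r.out : G) * ((y : G)⁻¹ * (r.out : G)⁻¹)) * r.out := by rw [h'']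
        _ = _ := by group
    calc (q.out : G)⁻¹ * r.out * y = y * ((y : G)⁻¹ * ((q.out : G)⁻¹ * r.out)) * y := by group
      _ = y * ((q.out : G)⁻¹ * r.out * (y : G)⁻¹) * y := by rw [h3]
      _ = y * ((q.out : G)⁻¹ * r.out) := by group
  have h4 := Nat.card_le_card_of_injective F hF
  rw [← Subgroup.index_eq_card] at h4
  have h5 : Nat.card K ≤ Nat.card S := by
    rw [Nat.card_congr (Subgroup.subgroupOfEquivOfLe hNP).toEquiv]
    exact (Nat.le_of_dvd (Nat.pos_of_ne_zero Subgroup.index_ne_zero_of_finite) hD).trans h4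
  exact hlt (Subgroup.eq_of_le_of_card_ge hle h5).ge

end CfsgLib.GagolaChar
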